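import Mathlib
import Cfsg.Agent.GT.ThompsonFusionZJ

/-!
# The group `(8 × 8) ⋊ 2³`
-/

set_option autoImplicit false

namespace Cfsg.Agent.G3.FS1

open Subgroup Multiplicative

/-- the homocyclic group -/
abbrev N : Type := Multiplicative (ZMod 8 × ZMod 8)

/-- the acting group -/
abbrev Q : Type := Multiplicative (ZMod 2 × ZMod 2 × ZMod 2)

/-- the exponent of the second generator -/
def ee (b : Bool) : ZMod 8 := if b then 3 else 7

/-- the scalar part of the action -/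
def sc (b : Bool) (q : Q) : ZMod 8 := (if q.toAdd.2.1 = 0 then 1 else ee b) * (if q.toAdd.2.2 = 0 then 1 else 5)

/-- the action -/
def act (b : Bool) (q : Q) (v : N) : N :=
  if q.toAdd.1 = 0 then ofAdd (sc b q * v.toAdd.1, sc b q * v.toAdd.2)
  else ofAdd (sc b q * v.toAdd.2, sc b q * v.toAdd.1)

theorem act_act : ∀ b q v, act b q (act b q v) = v := by decide +kernel

theorem act_mul : ∀ b q q' v, act b (q * q') v = act b q (act b q' v) := by decide +kernel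

theorem act_add (b : Bool) (q : Q) (v w : N) : act b q (v * w) = act b q v * act b q w := by
  unfold act
  split <;> simp [mul_add, ← ofAdd_add]

/-- the action as a homomorphism -/
def phi (b : Bool) : Q →* MulAut N :=
  MonoidHom.mk' (fun q => ⟨⟨act b q, act b q, act_act b q, act_act b q⟩, act_add b q⟩)
    fun q q' => MulEquiv.ext (act_mul b q q')

/-- the model -/
abbrev W (b : Bool) : Type := N ⋊[phi b] Q

instance (b : Bool) : Fintype (W b) := Fintype.ofEquiv _ SemidirectProduct.equivProd.symm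

instance (b : Bool) : DecidableEq (W b) := fun x y =>
  decidable_of_iff (x.left = y.left ∧ x.right = y.right) SemidirectProduct.ext_iff.symm

variable {b : Bool}

/-- letter -/
def G0 : W b := ⟨ofAdd (1, 0), 1⟩
/-- letter -/
def H0 : W b := ⟨ofAdd (0, 1), 1⟩
/-- letter -/
def S0 : W b := ⟨1, ofAdd (1, 0, 0)⟩
/-- letter -/
def U0 : W b := ⟨1, ofAdd (0, 1, 0)⟩
/-- letter -/
def T0 : W b := ⟨1, ofAdd (0, 0, 1)⟩

/-- the subgroup of index two -/
def P0 (b : Bool) : Subgroup (W b) :=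
  (MonoidHom.mk' (fun x : W b => (ofAdd x.right.toAdd.2.2 : Multiplicative (ZMod 2))) fun _ _ => rfl).ker

instance : (P0 b).Normal := MonoidHom.normal_ker _

theorem mem_P0 {x : W b} : x ∈ P0 b ↔ x.right.toAdd.2.2 = 0 := Iff.rfl

instance : DecidablePred (· ∈ P0 b) := fun _ => decidable_of_iff _ mem_P0.symm

theorem pg : IsPGroup 2 (W b) := IsPGroup.of_card (n := 9) (by rw [SemidirectProduct.card]; simp)

theorem card_P0 : Nat.card (P0 b) = 256 := by
  rw [Nat.card_eq_fintype_card, Fintype.card_subtype]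
  revert b
  decide +kernel

theorem cen : ∀ (b : Bool) (x : W b), G0 * x = x * G0 → S0 * x = x * S0 → U0 * x = x * U0 →
    x = 1 ∨ x = G0 ^ 4 * H0 ^ 4 := by decide +kernel

theorem cls0 : ∀ (b : Bool) (x : W b), x * x = 1 → G0 ^ 4 * x = x * G0 ^ 4 →
    (G0 * S0) ^ 4 * x = x * (G0 * S0) ^ 4 → (x = 1 ∨ x = G0 ^ 4 ∨ x = H0 ^ 4 ∨ x = G0 ^ 4 * H0 ^ 4) ∨
      ∃ y ∈ ([1, G0, H0, G0 * H0] : List (W b)), y * T0 * y⁻¹ = x := by decide +kernel

theorem no80 : ∀ (b : Bool) (x : W b), x ∈ P0 b → x * x = 1 → (G0 * x * G0⁻¹ * x) ^ 2 = 1 →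
    x = 1 ∨ x = G0 ^ 4 ∨ x = H0 ^ 4 ∨ x = G0 ^ 4 * H0 ^ 4 := by decide +kernel

theorem four : ∀ (b : Bool) (x : W b), ∃ i : Fin 4,
    (![1, G0, H0, G0 * H0] i)⁻¹ * x * T0 = T0 * ((![1, G0, H0, G0 * H0] i)⁻¹ * x) := by decide +kernel

theorem split : ∀ (b : Bool) (x : W b), x ∈ P0 b ∨ x * T0 ∈ P0 b := by decide +kernel

theorem gens : ∀ b : Bool, G0 ∈ P0 b ∧ H0 ∈ P0 b ∧ S0 ∈ P0 b ∧ U0 ∈ P0 b ∧ T0 ∉ P0 b := by decide +kernel

theorem Q_cases : ∀ q : Q, ∃ i j k : Fin 2,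
    q = ofAdd (1, 0, 0) ^ i.val * ofAdd (0, 1, 0) ^ j.val * ofAdd (0, 0, 1) ^ k.val := by decide +kernel

variable {H : Type*} [Group H]

theorem pw_add {n : ℕ} [NeZero n] {x : H} (hx : x ^ n = 1) (i j : ZMod n) :
    x ^ (i + j).val = x ^ i.val * x ^ j.val := by
  rw [ZMod.val_add, ← pow_eq_pow_mod _ hx, pow_add]

theorem pw_mul {n : ℕ} [NeZero n] {x : H} (hx : x ^ n = 1) (i j : ZMod n) :
    x ^ (i * j).val = (x ^ i.val) ^ j.val := by
  rw [ZMod.val_mul, ← pow_eq_pow_mod _ hx, pow_mul]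

/-- the relations -/
structure Rl (b : Bool) (g h s u t : H) : Prop where
  g8 : g ^ 8 = 1
  h8 : h ^ 8 = 1
  gh : Commute g h
  ss : s ^ 2 = 1
  uu : u ^ 2 = 1
  tt : t ^ 2 = 1
  su : Commute s u
  st : Commute s t
  ut : Commute u t
  sg : s * g * s⁻¹ = h
  sh : s * h * s⁻¹ = g
  ug : u * g * u⁻¹ = g ^ (ee b).val
  uh : u * h * u⁻¹ = h ^ (ee b).val
  tg : t * g * t⁻¹ = g ^ 5
  th : t * h * t⁻¹ = h ^ 5

theorem Rl.exists_hom {g h s u t : H} (r : Rl b g h s u t) : ∃ ψ : W b →* H, ∀ x,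
    ψ x = g ^ x.left.toAdd.1.val * h ^ x.left.toAdd.2.val *
      (s ^ x.right.toAdd.1.val * u ^ x.right.toAdd.2.1.val * t ^ x.right.toAdd.2.2.val) := by
  let fn : N →* H := MonoidHom.mk' (fun v => g ^ v.toAdd.1.val * h ^ v.toAdd.2.val) fun v w => by
    simp only [toAdd_mul, Prod.fst_add, Prod.snd_add, pw_add r.g8, pw_add r.h8]
    exact ((r.gh.pow_pow _ _).mul_mul_mul_comm _ _)
  let fg : Q →* H := MonoidHom.mk'
    (fun q => s ^ q.toAdd.1.val * u ^ q.toAdd.2.1.val * t ^ q.toAdd.2.2.val) fun v w => by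
      simp only [toAdd_mul, Prod.fst_add, Prod.snd_add, pw_add r.ss, pw_add r.uu, pw_add r.tt]
      rw [(r.su.pow_pow _ _).mul_mul_mul_comm,
        ((r.st.pow_pow _ _).mul_left (r.ut.pow_pow _ _)).mul_mul_mul_comm]
  have hfn : ∀ (y : H) v, y * fn v * y⁻¹ = (y * g * y⁻¹) ^ v.toAdd.1.val * (y * h * y⁻¹) ^ v.toAdd.2.val :=
    fun y v => by
      rw [conj_pow, conj_pow]
      change y * (_ * _) * _ = _
      group
  let M : Submonoid Q :=
    { carrier := {q | ∀ v, fn (phi b q v) = fg q * fn v * (fg q)⁻¹}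
      one_mem' := fun v => by simp
      mul_mem' := fun {p q} hp hq v => by
        rw [map_mul, MulAut.mul_apply, hp, hq, map_mul]
        group }
  have v1 : (1 : ZMod 2).val = 1 := rfl
  have h1 : ofAdd (1, 0, 0) ∈ M := fun v => by
    have e : fg (ofAdd (1, 0, 0)) = s := by simp [fg, v1]
    rw [e, hfn, r.sg, r.sh, ← (r.gh.pow_pow _ _).eq]
    change g ^ (1 * 1 * v.toAdd.2).val * h ^ (1 * 1 * v.toAdd.1).val = _
    rw [one_mul, one_mul, one_mul]
  have h2 : ofAdd (0, 1, 0) ∈ M := fun v => by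
    have e : fg (ofAdd (0, 1, 0)) = u := by simp [fg, v1]
    rw [e, hfn, r.ug, r.uh]
    change g ^ (ee b * 1 * v.toAdd.1).val * h ^ (ee b * 1 * v.toAdd.2).val = _
    rw [mul_one, pw_mul r.g8, pw_mul r.h8]
  have h3 : ofAdd (0, 0, 1) ∈ M := fun v => by
    have e : fg (ofAdd (0, 0, 1)) = t := by simp [fg, v1]
    rw [e, hfn, r.tg, r.th]
    change g ^ (1 * 5 * v.toAdd.1).val * h ^ (1 * 5 * v.toAdd.2).val = _
    rw [one_mul, pw_mul r.g8, pw_mul r.h8]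
    rfl
  refine ⟨SemidirectProduct.lift fn fg fun q => MonoidHom.ext fun v => ?_, fun x => rfl⟩
  obtain ⟨i, j, k, rfl⟩ := Q_cases q
  exact (M.mul_mem (M.mul_mem (M.pow_mem h1 _) (M.pow_mem h2 _)) (M.pow_mem h3 _)) v

theorem Rl.exists_inj {g h s u t : H} (r : Rl b g h s u t) (hz : g ^ 4 * h ^ 4 ≠ 1) :
    ∃ ψ : W b →* H, Function.Injective ψ ∧ ψ G0 = g ∧ ψ H0 = h ∧ ψ S0 = s ∧ ψ U0 = u ∧ ψ T0 = t ∧
      ∀ K : Subgroup H, g ∈ K → h ∈ K → s ∈ K → u ∈ K → (P0 b).map ψ ≤ K := by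
  obtain ⟨ψ, hψ⟩ := r.exists_hom
  have v1 : (1 : ZMod 2).val = 1 := rfl
  have v2 : (1 : ZMod 8).val = 1 := rfl
  have e1 : ψ G0 = g := by simp [hψ, G0, v2]
  have e2 : ψ H0 = h := by simp [hψ, H0, v2]
  refine ⟨ψ, ?_, e1, e2, by simp [hψ, S0, v1], by simp [hψ, U0, v1], by simp [hψ, T0, v1], ?_⟩
  · rw [← MonoidHom.ker_eq_bot_iff]
    by_contra hne
    have := GT.th_inf_center_ne_bot (D := ψ.ker) (P := ⊤) (pg.to_subgroup _) le_top
      (by rw [normalizer_eq_top]) hne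
    obtain ⟨⟨x, hx, hc⟩, h1⟩ := ne_bot_iff_exists_ne_one.1 this
    have hc' : ∀ y, y * x = x * y := fun y => mem_centralizer_iff.1 hc y (mem_top y)
    rcases cen b x (hc' _) (hc' _) (hc' _) with e | e
    · exact h1 (Subtype.ext e)
    · have hx' : ψ x = 1 := hx
      rw [e, map_mul, map_pow, map_pow, e1, e2] at hx'
      exact hz hx'
  · rintro K a1 a2 a3 a4 _ ⟨x, hx, rfl⟩
    rw [hψ, mem_P0.1 hx, ZMod.val_zero, pow_zero, mul_one]
    exact mul_mem (mul_mem (pow_mem a1 _) (pow_mem a2 _)) (mul_mem (pow_mem a3 _) (pow_mem a4 _))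

end Cfsg.Agent.G3.FS1
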