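import Mathlib
import Cfsg.Agent.G3.Data

/-! The eighteen Chevalley letters of G2(3) as words in the twelve letters -/

set_option autoImplicit false
set_option maxRecDepth 100000

namespace Cfsg.Agent.G3

open Cfsg.Agent.Spor Cfsg.Agent.Rec

def wB : List (List ℕ) := [[11, 9, 0, 7, 11, 6, 11, 7, 8, 10], [11, 6, 9, 10, 7, 10, 6, 1, 8, 10], [0, 11, 6, 9, 11, 8, 11, 6, 9, 10], [11, 7, 8, 10, 9, 10, 7, 8, 3, 10], [6], [7], [8], [9], [10, 6, 9, 10, 7, 11, 1, 7, 8, 11], [3, 10, 7, 8, 10, 6, 11, 7, 8, 11], [10, 7, 8, 10, 9, 11, 7, 3, 9, 11], [10, 7, 3, 9, 10, 8, 11, 6, 9, 11], [0, 6, 5, 8], [2, 6, 8, 5], [10, 7, 9, 10, 3, 7, 10, 7, 9], [6, 8, 11, 9, 3, 10, 6, 8, 10], [6, 8, 11, 6, 9, 1, 10, 7, 9], [6, 8, 11, 7, 10, 7, 3, 8, 10]]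

theorem wB_ok : beqL (wB.map (evC T16.G2.A cA)) T16.G2.lG = true := by decide +kernel

end Cfsg.Agent.G3
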